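import Cfsg.Agent.H749.TwoCmp
import Cfsg.Agent.H477.HC.Adj
import Cfsg.Agent.H113.PSU.Left43
import Cfsg.Agent.Characters.Counting

/-!
# `PSp_6(3)` and `PSp_4(3)`: the pairs of odd and even primes different from `3` (helper925, S4984)

`sp63` : `PSp_6(3)` has an irreducible character of degree a multiple of `2 * 5 * 7 * 13`;
`adj_sp63`, `adj_sp43` : the adjacencies.
-/

set_option autoImplicit false

open Cfsg

namespace Cfsg.Agent.H925.Np

open Cfsg.Agent.Characters Cfsg.Agent.H477.HC Cfsg.Agent.H749.Two Cfsg.Agent.H671.H5 Module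

universe u

/-- an involution in the centre acts as `± 1` -/
theorem central_inv {N : Type*} [Group N] [Finite N] {θ : N → ℂ} (hθ : IsIrrCharacter N θ) {z : N}
    (hz : z ∈ Subgroup.center N) (hz2 : z * z = 1) : θ z = θ 1 ∨ θ z = -θ 1 := by
  obtain ⟨l, hl⟩ := central_mul hθ hz
  have h0 := Core.isIrr_apply_one_ne_zero hθ
  have h1 := hl 1
  have h2 := hl z
  rw [one_mul] at h1
  rw [hz2, h1] at h2
  have h3 : (l - 1) * (l + 1) = 0 := by
    have h4 : θ 1 * ((l - 1) * (l + 1)) = 0 := by linear_combination -h2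
    exact (mul_eq_zero.1 h4).resolve_left h0
  rcases mul_eq_zero.1 h3 with h | h
  · left; rw [h1, sub_eq_zero.1 h, one_mul]
  · right
    have h5 : l = -1 := eq_neg_of_add_eq_zero_left h
    rw [h1, h5]; ring

/-- a faithful sign -/
theorem exists_neg {N : Type*} [Group N] [Finite N] {z : N} (hz : z ∈ Subgroup.center N) (hz2 : z * z = 1) (h1 : z ≠ 1) :
    ∃ θ : N → ℂ, IsIrrCharacter N θ ∧ θ z = -θ 1 := by
  classical
  have := Core.finite_irr (G := N)
  have := Fintype.ofFinite (IrrCharacter N)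
  by_contra hcon
  push Not at hcon
  have h2 : ∀ χ : IrrCharacter N, (χ : N → ℂ) z = (χ : N → ℂ) 1 := fun χ =>
    (central_inv χ.2 hz hz2).resolve_right (hcon _ χ.2)
  have h3 := Counting.sum_irr_one_mul z
  have h4 := Counting.sum_irr_one_mul (1 : N)
  rw [if_neg h1] at h3
  rw [if_pos rfl] at h4
  have h5 : ∑ χ : IrrCharacter N, (χ : N → ℂ) 1 * (χ : N → ℂ) z = ∑ χ : IrrCharacter N, (χ : N → ℂ) 1 * (χ : N → ℂ) 1 :=
    Finset.sum_congr rfl fun χ _ => by rw [h2]
  rw [h3, h4] at h5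
  exact Core.card_ne_zero_complex h5.symm

section

variable {K : Type u} [Field K] [Finite K]

omit [Finite K] in
/-- the element `-1` -/
theorem exists_neg_one {V : Type*} [AddCommGroup V] [Module K V] (F : CForm K V) :
    ∃ z : F.iso, (∀ v, (z : V ≃ₗ[K] V) v = -v) ∧ z * z = 1 ∧ z ∈ Subgroup.center F.iso := by
  have hB : ∀ u v, F.B (-u) (-v) = F.B u v := by
    intro u v
    have h1 : (-u : V) = (-1 : K) • u := (neg_one_smul K u).symm
    have h2 : (-v : V) = (-1 : K) • v := (neg_one_smul K v).symm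
    rw [h1, h2, F.B_smul_left, F.B_smul_right, map_neg, map_one]
    ring
  have hQ : ∀ v, F.Q (-v) = F.Q v := by
    intro v
    rw [(neg_one_smul K v).symm, F.Q_smul, map_neg, map_one]
    ring
  refine ⟨⟨LinearEquiv.neg K, hB, hQ⟩, fun v => rfl, ?_, ?_⟩
  · apply Subtype.ext
    ext v
    exact neg_neg v
  · rw [Subgroup.mem_center_iff]
    intro g
    apply Subtype.ext
    ext v
    exact map_neg (g : V ≃ₗ[K] V) v

theorem sp63 (hK : Nat.card K = 3) : ∃ d, 7280 ∣ d ∧ Ch (PSp 3 K) d := by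
  classical
  obtain ⟨p, hp⟩ := CharP.exists K
  let _ := Fintype.ofFinite K
  have hpr : p.Prime := (CharP.char_is_prime_or_zero K p).resolve_right (CharP.char_ne_zero_of_finite K p)
  have : Fact p.Prime := ⟨hpr⟩
  have hp3 : p = 3 := by
    obtain ⟨⟨n, hn⟩, -, hc⟩ := FiniteField.card K p
    rw [← Nat.card_eq_fintype_card, hK] at hc
    have : p ∣ 3 := by rw [hc]; exact dvd_pow_self p hn.ne'
    exact (Nat.prime_dvd_prime_iff_eq hpr Nat.prime_three).1 this
  subst hp3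
  obtain ⟨W₀, hW₀, hcmp⟩ := spF_cmp (K := K) 2 1
  obtain ⟨c, hc⟩ := exists_cus_one (K := K) hK 2 (by norm_num) (by norm_num) (by rintro ⟨h, -⟩; omega)
  have hdisj := no_disj (F := CForm.spF K (2 + 1)) (m := 3) (fun W hW => by
    have h1 := two_finrank_le (F := CForm.spF K (2 + 1)) hW
    rw [Module.finrank_fintype_fun_eq_card, Fintype.card_sum, Fintype.card_fin] at h1
    omega) (by norm_num) hW₀
  obtain ⟨z₀, hz₀, hz₀2, hz₀c⟩ := exists_neg_one (CForm.spF K 1)
  have hz₀1 : z₀ ≠ 1 := by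
    intro h
    have h1 := hz₀ (fun _ => 1)
    rw [h] at h1
    have h2 := congrFun h1 (Sum.inl 0)
    change (1 : K) = -1 at h2
    have h3 : (2 : K) = 0 := by linear_combination h2
    have h4 : (3 : K) = 0 := CharP.cast_eq_zero K 3
    have h5 : (1 : K) = 0 := by linear_combination h4 - h3
    exact one_ne_zero h5
  -- the sign of `c` at `-1`
  have hcs := central_inv hc.irr (z := Matrix.GeneralLinearGroup.scalar (Fin 2) (-1 : Kˣ)) (by
    rw [Subgroup.mem_center_iff]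
    intro g
    apply Units.ext
    exact (Matrix.scalar_commute _ (fun r => Commute.all _ r) _).eq.symm) (by
      rw [← map_mul]; simp)
  have hfin1 := finite_iso (CForm.spF K 1)
  obtain ⟨ψ₀, hψ₀, hψ⟩ : ∃ ψ₀ : (CForm.spF K 1).iso → ℂ, IsIrrCharacter _ ψ₀ ∧
      c (Matrix.GeneralLinearGroup.scalar (Fin 2) (-1 : Kˣ)) * ψ₀ z₀ = c 1 * ψ₀ 1 := by
    rcases hcs with h | h
    · exact ⟨1, Core.isIrr_one, by rw [h]; rfl⟩
    · obtain ⟨θ, hθ, hθ'⟩ := exists_neg hz₀c hz₀2 hz₀1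
      exact ⟨θ, hθ, by rw [h, hθ']; ring⟩
  obtain ⟨χ, hχ, hχ1, hχz⟩ := exists_hc hcmp hc hW₀ hψ₀ hdisj
  obtain ⟨n, hn0, hn⟩ := Core.isIrr_apply_one hψ₀
  have hdvd : 7280 ∣ dg (CForm.spF K (2 + 1)) 2 := by
    obtain ⟨e, he⟩ := psp_dvd K (p := 3) (k := 2) (n := 1) (by norm_num)
    rw [hK] at he
    have h1 : ∏ i ∈ Finset.Ico 1 (2 + 1), (3 ^ (2 * (i + 1)) - 1) = 7280 * 8 := by decide
    rw [h1, show 3 ^ 2 - 1 = 8 by norm_num, ← mul_assoc] at he
    have h2 := Nat.dvd_of_mul_dvd_mul_right (by norm_num : 0 < 8) he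
    exact (Nat.Coprime.pow_right e (by norm_num : Nat.Coprime 7280 3)).dvd_of_dvd_mul_left h2
  refine ⟨dg (CForm.spF K (2 + 1)) 2 * n, hdvd.mul_right _, ?_⟩
  have hfin : Finite (Matrix.symplecticGroup (Fin (2 + 1)) K) := inferInstance
  have hχ' : IsIrrCharacter _ (χ ∘ (isoSp (2 + 1) K).toMonoidHom) :=
    Core.isIrr_comp (isoSp (2 + 1) K).toMonoidHom (isoSp (2 + 1) K).surjective hχ
  obtain ⟨η, hη, hη'⟩ := exists_quot (Subgroup.center (Matrix.symplecticGroup (Fin (2 + 1)) K)) hχ' (fun z hz => by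
    change χ (isoSp (2 + 1) K z) = χ (isoSp (2 + 1) K 1)
    rw [map_one]
    rcases Cfsg.Agent.ClassicalGeometry.SympInvolutions.center_eq hz with h | h
    · refine hχz _ 1 (fun v => ?_) fun z' hz' => ?_
      · rw [isoSp_apply, h, Matrix.one_mulVec, Units.val_one, one_smul]
      · have h1 : z' = 1 := Subtype.ext (LinearEquiv.ext fun x => by rw [hz', Units.val_one, one_smul]; rfl)
        rw [h1, map_one]
    · refine hχz _ (-1) (fun v => ?_) fun z' hz' => ?_
      · rw [isoSp_apply, h, Matrix.neg_mulVec, Matrix.one_mulVec, Units.val_neg, Units.val_one, neg_one_smul]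
      · have h1 : z' = z₀ := Subtype.ext (LinearEquiv.ext fun x => by
          rw [hz', hz₀, Units.val_neg, Units.val_one, neg_one_smul])
        rw [h1]
        exact hψ)
  refine ⟨η, hη, ?_⟩
  have h2 := hη' 1
  rw [QuotientGroup.mk_one] at h2
  rw [h2]
  change χ (isoSp (2 + 1) K 1) = _
  rw [map_one, hχ1, hn]
  push_cast
  ring

/-- **`PSp_6(3)`** -/
theorem adj_sp63 (hK : Nat.card K = 3) {r s : ℕ} (hrs : r ≠ s) (hr : r ∈ ({2, 5, 7, 13} : Finset ℕ))
    (hs : s ∈ ({2, 5, 7, 13} : Finset ℕ)) : Adj r s (PSp 3 K) := by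
  obtain ⟨d, hd, hch⟩ := sp63 hK
  have h1 : ∀ t ∈ ({2, 5, 7, 13} : Finset ℕ), t.Prime ∧ t ∣ 7280 := by decide
  exact adj_of_ch hch (h1 r hr).1 (h1 s hs).1 hrs ((h1 r hr).2.trans hd) ((h1 s hs).2.trans hd)

/-- **`PSp_4(3)`** -/
theorem adj_sp43 (hK : Nat.card K = 3) : Adj 2 5 (PSp 2 K) := by
  let _ := Fintype.ofFinite K
  obtain ⟨χ, -, h, -, h1, -⟩ := H113.PSU.Left43.sp43 (F := K) (by rw [← Nat.card_eq_fintype_card]; exact hK)
  exact adj_of_ch ⟨χ, h, by rw [h1]; norm_num⟩ Nat.prime_two Nat.prime_five (by norm_num) (by norm_num : 2 ∣ 20) (by norm_num)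

end

end Cfsg.Agent.H925.Np
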